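import Mathlib
import Cfsg.Agent.Lib.Phan.Chain
import Cfsg.Agent.Lib.ClPres.SL

/-!
# Presentations of `SU n` from a block and a group of permutation matrices
-/

set_option autoImplicit false

namespace CfsgLib.Phan
open Cfsg Matrix CfsgLib.Unitary CfsgLib.Pres CfsgLib.ClPres Equiv Equiv.Perm Function Monoid

universe u

variable {F : Type u} [Field F] {q n k j : ℕ}

theorem emb_smul_ee (f : Fin k ↪ Fin n) (A : SU k F q) (a : Fin k) :
    emb f A • (ee (f a) : Fin n → F) = ∑ b, A.1.1 b a • ee (f b) := by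
  refine ext_split f (fun b => ?_) fun i hi => ?_
  · rw [emb_smul_apply, ee_comp]
    simp [su_smul_eq, ee, Finset.sum_apply, Pi.single_apply]
  · rw [emb_smul_of_ne _ _ _ hi]
    simp [ee_apply, Finset.sum_apply, (hi _).symm]

theorem conj_emb [Fintype F] (hF : Fintype.card F = q ^ 2) {f f' : Fin k ↪ Fin n} {g : SU n F q}
    (h : ∀ a, g • (ee (f a) : Fin n → F) = ee (f' a)) (A : SU k F q) :
    g * emb f A * g⁻¹ = emb f' A := by
  refine su_ext_ee fun i => ?_
  rw [mul_smul, mul_smul]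
  by_cases hi : ∃ a, f' a = i
  · obtain ⟨a, rfl⟩ := hi
    rw [emb_smul_ee, ← h, inv_smul_smul, emb_smul_ee, Finset.smul_sum]
    exact Finset.sum_congr rfl fun b _ => by rw [smul_comm, h]
  · have hi' : ∀ a, f' a ≠ i := fun a e => hi ⟨a, e⟩
    have : (g⁻¹ • (ee i : Fin n → F)) ∘ f = 0 := funext fun a => by
      rw [Function.comp_apply, ← herm_ee_right hF (g⁻¹ • ee i), herm_inv_smul, h, herm_ee_ee hF, if_neg (hi' a).symm]; rfl
    rw [emb_smul_eq_self _ _ (by rw [this, smul_zero]), smul_inv_smul, emb_smul_ee_of_ne _ _ hi']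

theorem exists_pm (q : ℕ) (P : Subgroup (Perm (Fin n))) (hP : ∀ s ∈ P, ((sign s : ℤ) : F) = 1) :
    ∃ w : P →* SU n F q, ∀ s i, w s • (ee i : Fin n → F) = ee (s.1 i) := by
  refine ⟨MonoidHom.mk' (fun s => mkSU ((s.1⁻¹).permMatrix F)
    (by rw [det_permutation, sign_inv, hP _ s.2]) fun u v => ?_) fun s t => su_ext' fun v => ?_,
    fun s i => ?_⟩
  · simp only [permMatrix_mulVec, herm_def, Function.comp_apply]
    exact Equiv.sum_comp s.1⁻¹ fun i => u i * v i ^ q
  · rw [mul_smul]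
    simp only [su_smul_eq, coe_mkSU, permMatrix_mulVec]
    rfl
  · simp only [su_smul_eq, MonoidHom.mk'_apply, coe_mkSU, permMatrix_mulVec]
    ext x
    simp [ee_apply, Equiv.symm_apply_eq]

/-- `s` translates the window of length `j` at `a` to the window at `i`. -/
def Sh (s : Perm (Fin n)) (a j i : ℕ) : Prop :=
  ∀ t : Fin n, a ≤ t → (t : ℕ) < a + j → (s t : ℕ) + a = t + i

theorem Sh.mul {s c : Perm (Fin n)} {a b b' i i' : ℕ} (h : Sh s a j b) (h' : Sh c b' k i)
    (h1 : b' ≤ b) (h2 : b + j ≤ b' + k) (e : i' + b' = i + b) : Sh (c * s) a j i' := fun t h3 h4 => by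
  have := h t h3 h4
  have := h' (s t) (by omega) (by omega)
  rw [Perm.mul_apply]; omega

theorem Sh.mono {s : Perm (Fin n)} {a a' i i' : ℕ} (h : Sh s a k i) (h1 : a ≤ a') (h2 : a' + j ≤ a + k)
    (e : i' + a = i + a') : Sh s a' j i' := fun t h3 h4 => by
  have := h t (by omega) (by omega); omega

theorem sh_one (a j : ℕ) : Sh (1 : Perm (Fin n)) a j a := fun _ _ _ => rfl

variable {Γ : Type*} [Group Γ] {H H' : Type*} [Group H] [Group H'] {P : Subgroup (Perm (Fin n))}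

/-- A chosen translation. -/
noncomputable def sh (P : Subgroup (Perm (Fin n))) (j i : ℕ) : P :=
  Classical.epsilon fun s : P => Sh s.1 0 j i

theorem sh_spec {i : ℕ} (h : ∃ s : P, Sh s.1 0 j i) : Sh (sh P j i).1 0 j i := Classical.epsilon_spec h

/-- The translate of `ρ`. -/
noncomputable def tr (τ : P →* Γ) (j : ℕ) (ρ : H →* Γ) (i : ℕ) : H →* Γ :=
  (MulAut.conj (τ (sh P j i))).toMonoidHom.comp ρ

theorem tr_apply (τ : P →* Γ) (j : ℕ) (ρ : H →* Γ) (i : ℕ) (a : H) :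
    tr τ j ρ i a = τ (sh P j i) * ρ a * (τ (sh P j i))⁻¹ := rfl

theorem map_tr {Γ' : Type*} [Group Γ'] (θ : Γ →* Γ') (τ : P →* Γ) (j : ℕ) (ρ : H →* Γ) (i : ℕ)
    (a : H) : θ (tr τ j ρ i a) = tr (θ.comp τ) j (θ.comp ρ) i a := by simp [tr_apply]

/-- The permutations fixing the first `j` points centralise `ρ`. -/
def Cen (τ : P →* Γ) (j : ℕ) (ρ : H →* Γ) : Prop :=
  ∀ s : P, (∀ t : Fin n, (t : ℕ) < j → s.1 t = t) → ∀ a, Commute (τ s) (ρ a)

variable {τ : P →* Γ} {ρ : H →* Γ} {ρ' : H' →* Γ}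

theorem Cen.eq (h : Cen τ j ρ) {s : P} {i : ℕ} (hs : Sh s.1 0 j i) (a : H) :
    tr τ j ρ i a = τ s * ρ a * (τ s)⁻¹ := by
  have := (h (s⁻¹ * sh P j i) (fun t ht => ?_) a).eq
  · rw [map_mul, map_inv] at this
    rw [tr_apply, ← mul_inv_cancel_left (τ s) (τ (sh P j i)), mul_assoc (τ s), this]
    group
  · have h1 := sh_spec ⟨s, hs⟩ t (by omega) (by omega)
    have h2 := hs t (by omega) (by omega)
    rw [Subgroup.coe_mul, Perm.mul_apply, Subgroup.coe_inv, Perm.inv_eq_iff_eq]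
    exact Fin.ext (by omega)

theorem Cen.conj (h : Cen τ j ρ) {s : P} {i l : ℕ} (hi : ∃ d : P, Sh d.1 0 j i) (hs : Sh s.1 i j l)
    (a : H) : tr τ j ρ l a = τ s * tr τ j ρ i a * (τ s)⁻¹ := by
  obtain ⟨d, hd⟩ := hi
  rw [h.eq hd, h.eq (s := s * d) (hd.mul hs le_rfl le_rfl rfl), map_mul]
  group

theorem Cen.comm {j' i i' l l' : ℕ} (h : Cen τ j ρ) (h' : Cen τ j' ρ') (hi : ∃ d : P, Sh d.1 0 j i)
    (hi' : ∃ d : P, Sh d.1 0 j' i') (hc : ∀ a b, Commute (tr τ j ρ i a) (tr τ j' ρ' i' b))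
    (hs : ∃ s : P, Sh s.1 i j l ∧ Sh s.1 i' j' l') (a : H) (b : H') :
    Commute (tr τ j ρ l a) (tr τ j' ρ' l' b) := by
  obtain ⟨s, h1, h2⟩ := hs
  rw [h.conj hi h1, h'.conj hi' h2]
  exact (hc a b).map (MulAut.conj (τ s))

variable [Fintype F] (hF : Fintype.card F = q ^ 2) {w : P →* SU n F q}
  (hw : ∀ s i, w s • (ee i : Fin n → F) = ee (s.1 i))
include hF hw

theorem conj_blk {s : P} {a i : ℕ} (h : Sh s.1 a j i) (ha : a + j ≤ n) (hi : i + j ≤ n) (A : SU j F q) :
    w s * blk j n a ha A * (w s)⁻¹ = blk j n i hi A :=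
  conj_emb hF (fun t => by
    rw [hw]
    have := h (seg j n a ha t) (by simp) (by simp)
    exact congrArg ee (Fin.ext (by simp at this ⊢; omega))) A

theorem tr_blk {i : ℕ} (h : ∃ s : P, Sh s.1 0 j i) (hi : i + j ≤ n) (A : SU j F q) :
    tr w j (blk j n 0 (by omega)) i A = blk j n i hi A := conj_blk hF hw (sh_spec h) _ _ A

theorem pm_mem_range {s : P} {i : ℕ} (hi : i + k ≤ n)
    (h : ∀ t : Fin n, (t : ℕ) < i ∨ i + k ≤ t → s.1 t = t) : w s ∈ (blk k n i hi).range :=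
  (mem_range_blk hF hi).2 fun t ht => by rw [hw, h t ht]

omit hF hw in
/-- A group generated by lifts of the first block and of the permutation matrices. -/
structure Dat (w : P →* SU n F q) (hk : 0 + k ≤ n) (π : Γ →* SU n F q) (σ : SU k F q →* Γ)
    (τ : P →* Γ) : Prop where
  hσ : ∀ a, π (σ a) = blk k n 0 hk a
  hτ : ∀ s, π (τ s) = w s
  id : ∀ s : P, (∀ t : Fin n, k ≤ t → s.1 t = t) → τ s ∈ σ.range

variable {hk : 0 + k ≤ n} {π : Γ →* SU n F q} {σ : SU k F q →* Γ}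

theorem Dat.blk (h : Dat w hk π σ τ) (hj : 0 + j ≤ k) (hC : Cen τ j (σ.comp (blk j k 0 hj))) {i t : ℕ}
    (hi : ∃ c : P, Sh c.1 0 k i) (ht : t + j ≤ k)
    (hu : ∃ u : P, (∀ t : Fin n, k ≤ t → u.1 t = t) ∧ Sh u.1 0 j t) (a : SU j F q) :
    tr τ k σ i (blk j k t ht a) = tr τ j (σ.comp (blk j k 0 hj)) (i + t) a := by
  obtain ⟨u, h1, h2⟩ := hu
  obtain ⟨b, hb⟩ := h.id u h1
  have e : Phan.blk j k t ht a = b * Phan.blk j k 0 hj a * b⁻¹ := by
    refine emb_injective (seg k n 0 hk) ?_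
    change Phan.blk k n 0 hk _ = Phan.blk k n 0 hk _
    rw [map_mul, map_mul, map_inv, ← h.hσ b, hb, h.hτ, blk_blk, blk_blk,
      conj_blk hF hw h2 (by omega) (by omega), blk_congr _ (zero_add t)]
  rw [hC.eq (s := sh P k i * u) (h2.mul (sh_spec hi) (by omega) (by omega) (by omega)), tr_apply, e,
    map_mul, map_mul, map_inv, hb, map_mul, MonoidHom.comp_apply]
  group

theorem Dat.inj (h : Dat w hk π σ τ) (hk3 : 3 ≤ k) (hex : ∀ i, i + k ≤ n → ∃ s : P, Sh s.1 0 k i)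
    (hP : ∀ K : Subgroup P, (∀ i (s : P), i + k ≤ n →
      (∀ t : Fin n, (t : ℕ) < i ∨ i + k ≤ t → s.1 t = t) → s ∈ K) → K = ⊤)
    (hgen : ∀ K : Subgroup Γ, (∀ a, σ a ∈ K) → (∀ s, τ s ∈ K) → K = ⊤) {Φ : SU n F q →* Γ}
    (hΦ : ∀ i (hi : i + k ≤ n) a, Φ (Phan.blk k n i hi a) = tr τ k σ i a) : Injective π := by
  have h1 : ∀ a, π (Φ a) = a := hom_ext_blk hF (Or.inl hk3) (by omega) (φ := π.comp Φ)
    (ψ := MonoidHom.id _) fun i hi c => by
      rw [MonoidHom.comp_apply, hΦ, tr_apply, map_mul, map_mul, map_inv, h.hσ, h.hτ]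
      exact conj_blk hF hw (sh_spec (hex i hi)) _ _ c
  have h2 : ∀ s, τ s ∈ Φ.range := fun s => by
    have := hP (Φ.range.comap τ) fun i s hi hs => ?_
    · exact (this ▸ Subgroup.mem_top s : s ∈ Φ.range.comap τ)
    have hc := sh_spec (hex i hi)
    obtain ⟨b, hb⟩ := h.id ((sh P k i)⁻¹ * s * sh P k i) fun t ht => by
      rw [Subgroup.coe_mul, Subgroup.coe_mul, Perm.mul_apply, Perm.mul_apply, Subgroup.coe_inv,
        Perm.inv_eq_iff_eq]
      refine hs _ (by_contra fun hx => ?_)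
      have := hc ⟨(sh P k i).1 t - i, by omega⟩ (by omega) (by simp only; omega)
      have := (sh P k i).1.injective (Fin.ext (show ((sh P k i).1 ⟨(sh P k i).1 t - i, _⟩ : ℕ) =
        (sh P k i).1 t by simp only at this; omega))
      have := congrArg Fin.val this
      simp only at this; omega
    refine ⟨_, (hΦ i hi b).trans ?_⟩
    rw [tr_apply, hb, map_mul, map_mul, map_inv]
    group
  have h3 := hgen Φ.range (fun a => ?_) h2
  · refine (injective_iff_map_eq_one _).2 fun x hx => ?_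
    obtain ⟨a, rfl⟩ : x ∈ Φ.range := h3 ▸ Subgroup.mem_top x
    rw [← h1 a, hx, map_one]
  · have := Φ.range.mul_mem (Φ.range.mul_mem (inv_mem (h2 (sh P k 0))) ⟨_, hΦ 0 hk a⟩) (h2 (sh P k 0))
    simpa [tr_apply, mul_assoc] using this

theorem pres_of_imp {d r d' r' s m : ℕ} (hk : 0 + k ≤ n) (hk3 : 3 ≤ k) (hS : Pres (SU k F q) d r)
    (hA : Pres P d' r') (hs : GenBy ((fixOut fun t : Fin n => (t : ℕ) < k).comap P.subtype) s)
    (hex : ∀ i, i + k ≤ n → ∃ s : P, Sh s.1 0 k i)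
    (hP : ∀ K : Subgroup P, (∀ i (s : P), i + k ≤ n →
      (∀ t : Fin n, (t : ℕ) < i ∨ i + k ≤ t → s.1 t = t) → s ∈ K) → K = ⊤)
    {Q : ∀ (Γ : Type u) [Group Γ], (Coprod (SU k F q) P →* Γ) → Prop}
    (hQ : Imp (Coprod.lift (blk k n 0 hk) w) m Q)
    (h : ∀ (Γ : Type u) [Group Γ] (θ : Coprod (SU k F q) P →* Γ) (π : Γ →* SU n F q),
      Dat w hk π (θ.comp Coprod.inl) (θ.comp Coprod.inr) → Q Γ θ → ∃ Φ : SU n F q →* Γ,
        ∀ i (hi : i + k ≤ n) a, Φ (blk k n i hi a) = tr (θ.comp Coprod.inr) k (θ.comp Coprod.inl) i a) :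
    Pres (SU n F q) (d + d') (r + r' + (s * 1 + m)) := by
  refine ((imp_gen hs (θ₀ := Coprod.lift (blk k n 0 hk) w)
    (R := fun s _ _ θ => θ (Coprod.inr s) ∈ (Coprod.inl : SU k F q →* _).range.map θ)
    (fun s hs => imp_mem ?_) (fun _ _ _ => by simp)
    (fun _ _ _ _ _ h1 h2 => by simpa only [map_mul] using mul_mem h1 h2)
    fun _ _ _ _ h1 => by simpa only [map_inv] using inv_mem h1).and hQ).pres (pres_coprod hS hA) ?_
    fun Γ _ θ π h1 h2 h3 => ?_
  · obtain ⟨b, hb⟩ := pm_mem_range hF hw hk (s := s) fun t ht => hs t (by omega)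
    exact ⟨_, ⟨b, rfl⟩, by simpa using hb⟩
  · rw [← MonoidHom.range_eq_top]
    refine gen_blk hF (Or.inl hk3) (by omega) _ fun i hi c => ⟨tr Coprod.inr k Coprod.inl i c, ?_⟩
    rw [map_tr, Coprod.lift_comp_inr, Coprod.lift_comp_inl, tr_blk hF hw (hex i hi)]
  · have hD : Dat w hk π (θ.comp Coprod.inl) (θ.comp Coprod.inr) :=
      ⟨fun a => by simp [h2], fun s => by simp [h2], fun s hs => by
        rw [MonoidHom.range_comp]; exact h3.1 s fun t ht => hs t (by omega)⟩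
    obtain ⟨Φ, hΦ⟩ := h Γ θ π hD h3.2
    refine hD.inj hF hw hk3 hex hP (fun K k1 k2 => eq_top_iff.2 fun x _ => ?_) hΦ
    obtain ⟨y, rfl⟩ := h1 x
    induction y using Coprod.induction_on with
    | inl a => exact k1 a
    | inr s => exact k2 s
    | mul a b ha hb => rw [map_mul]; exact mul_mem (ha trivial) (hb trivial)

theorem imp_cen {s g : ℕ} (hk : 0 + k ≤ n) (hj : 0 + j ≤ k)
    (hs : GenBy ((fixOut fun t : Fin n => j ≤ (t : ℕ)).comap P.subtype) s)
    (hg : GenBy (⊤ : Subgroup (SU j F q)) g) :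
    Imp (Coprod.lift (blk k n 0 hk) w) (g * s) fun _ _ θ =>
      Cen (θ.comp Coprod.inr) j ((θ.comp Coprod.inl).comp (blk j k 0 hj)) :=
  (imp_commute_gen₂ hs hg Coprod.inr (Coprod.inl.comp (blk j k 0 hj)) fun s hs a _ => by
    simp only [Coprod.lift_apply_inr, MonoidHom.comp_apply, Coprod.lift_apply_inl, blk_blk]
    have := conj_blk hF hw (s := s) (a := 0) (i := 0) (j := j)
      (fun t _ ht => by rw [show s.1 t = t from hs t (by omega)]) (by omega) (by omega) a
    exact mul_inv_eq_iff_eq_mul.1 this).mono le_rfl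
    fun _ _ _ h s hs a => h a trivial s fun t ht => hs t (by omega)

theorem imp_comm {g g' j' i i' : ℕ} (hk : 0 + k ≤ n) (hj : 0 + j ≤ k) (hj' : 0 + j' ≤ k)
    (hg : GenBy (⊤ : Subgroup (SU j F q)) g) (hg' : GenBy (⊤ : Subgroup (SU j' F q)) g')
    (hi : ∃ d : P, Sh d.1 0 j i) (hi' : ∃ d : P, Sh d.1 0 j' i') (h1 : i + j ≤ i') (h2 : i' + j' ≤ n) :
    Imp (Coprod.lift (blk k n 0 hk) w) (g' * g) fun _ _ θ => ∀ a b,
      Commute (tr (θ.comp Coprod.inr) j ((θ.comp Coprod.inl).comp (blk j k 0 hj)) i a)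
        (tr (θ.comp Coprod.inr) j' ((θ.comp Coprod.inl).comp (blk j' k 0 hj')) i' b) := by
  have e : ∀ {j} (hj : 0 + j ≤ k), (Coprod.lift (blk k n 0 hk) w).comp (Coprod.inl.comp (blk j k 0 hj)) =
      blk j n 0 (by omega) := fun hj => by ext1 a; simp [blk_blk]
  refine (imp_commute_gen₂ hg hg' (tr Coprod.inr j (Coprod.inl.comp (blk j k 0 hj)) i)
    (tr Coprod.inr j' (Coprod.inl.comp (blk j' k 0 hj')) i') fun a _ b _ => ?_).mono le_rfl
    fun _ _ θ h a b => by simpa only [map_tr, MonoidHom.comp_assoc] using h b trivial a trivial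
  rw [map_tr, map_tr, e, e, Coprod.lift_comp_inr, tr_blk hF hw hi (by omega), tr_blk hF hw hi' h2]
  exact commute_blk _ _ h1 a b

omit hF hw

/-- A transposition. -/
def sw (a b : ℕ) (ha : a < n) (hb : b < n) : Perm (Fin n) := Equiv.swap ⟨a, ha⟩ ⟨b, hb⟩

theorem sw_val {a b : ℕ} (ha : a < n) (hb : b < n) (t : Fin n) :
    (sw a b ha hb t : ℕ) = if (t : ℕ) = a then b else if (t : ℕ) = b then a else t := by
  simp only [sw, swap_apply_def, Fin.ext_iff]; split_ifs <;> rfl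

theorem sign_sw {a b : ℕ} (ha : a < n) (hb : b < n) (h : a ≠ b) : sign (sw a b ha hb) = -1 :=
  sign_swap fun e => h (congrArg Fin.val e)

theorem sw_mul_self {a b : ℕ} (ha : a < n) (hb : b < n) : sw a b ha hb * sw a b ha hb = 1 :=
  swap_mul_self _ _

theorem exists_alt {m : ℕ} (hm : m + 2 ≤ n) (g : ℕ → ℕ) (hg : ∀ t < m, g t < n)
    (hi : ∀ s < m, ∀ t < m, g s = g t → s = t) :
    ∃ s : alternatingGroup (Fin n), ∀ t : Fin n, (t : ℕ) < m → (s.1 t : ℕ) = g t := by
  obtain ⟨s, hs⟩ := exists_even_map' (f := Fin.castLE (show m ≤ n by omega))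
    (g := fun t : Fin m => (⟨g t, hg t t.2⟩ : Fin n)) (Fin.castLE_injective _)
    (fun s t e => Fin.ext (hi _ s.2 _ t.2 (congrArg Fin.val e))) (a := ⟨m, by omega⟩)
    (b := ⟨m + 1, by omega⟩) (by simp) (fun x e => by have := congrArg Fin.val e; simp at this; omega)
    fun x e => by have := congrArg Fin.val e; simp at this; omega
  exact ⟨s, fun t ht => congrArg Fin.val (hs ⟨t, ht⟩)⟩

theorem exists_top {m : ℕ} (hm : m ≤ n) (g : ℕ → ℕ) (hg : ∀ t < m, g t < n)
    (hi : ∀ s < m, ∀ t < m, g s = g t → s = t) :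
    ∃ s : (⊤ : Subgroup (Perm (Fin n))), ∀ t : Fin n, (t : ℕ) < m → (s.1 t : ℕ) = g t := by
  obtain ⟨s, hs⟩ := Perm.exists_extending_pair (Fin.castLE hm)
    (fun t : Fin m => (⟨g t, hg t t.2⟩ : Fin n)) (Fin.castLE_injective _)
    fun s t e => Fin.ext (hi _ s.2 _ t.2 (congrArg Fin.val e))
  exact ⟨⟨s, trivial⟩, fun t ht => congrArg Fin.val (hs ⟨t, ht⟩)⟩

theorem alt_sh {i : ℕ} (hj : j + 2 ≤ n) (hi : i + j ≤ n) :
    ∃ s : alternatingGroup (Fin n), Sh s.1 0 j i := by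
  obtain ⟨s, hs⟩ := exists_alt hj (i + ·) (fun t ht => by omega) fun s _ t _ e => by omega
  exact ⟨s, fun t _ ht => by rw [hs t (by omega)]; omega⟩

theorem alt_sh_two {i i' : ℕ} (hn : 5 ≤ n) (h : i + 2 ≤ i') (h' : i' + 2 ≤ n) :
    ∃ s : alternatingGroup (Fin n), Sh s.1 0 2 i ∧ Sh s.1 2 2 i' := by
  rcases hn.eq_or_lt with rfl | hn
  · obtain ⟨rfl, rfl⟩ | ⟨rfl, rfl⟩ | ⟨rfl, rfl⟩ : i = 0 ∧ i' = 2 ∨ i = 0 ∧ i' = 3 ∨ i = 1 ∧ i' = 3 := by
      omega
    · exact ⟨1, sh_one _ _, sh_one _ _⟩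
    · exact ⟨⟨Equiv.swap 2 3 * Equiv.swap 3 4, by simp [mem_alternatingGroup]⟩,
        by unfold Sh; decide, by unfold Sh; decide⟩
    · exact ⟨⟨finRotate 5, by simp [mem_alternatingGroup]; decide⟩, by unfold Sh; decide,
        by unfold Sh; decide⟩
  · obtain ⟨s, hs⟩ := exists_alt (n := n) (m := 4) hn (fun t => if t < 2 then i + t else i' + (t - 2))
      (fun t ht => by split_ifs <;> omega) fun s _ t _ e => by split_ifs at e <;> omega
    exact ⟨s, fun t _ ht => by rw [hs t (by omega), if_pos (by omega)]; omega,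
      fun t _ ht => by rw [hs t (by omega), if_neg (by omega)]; omega⟩

theorem top_sh_two {j' i i' : ℕ} (h : i + j ≤ i' ∨ i' + j' ≤ i) (h1 : i + j ≤ n) (h2 : i' + j' ≤ n) :
    ∃ s : (⊤ : Subgroup (Perm (Fin n))), Sh s.1 0 j i ∧ Sh s.1 j j' i' := by
  obtain ⟨s, hs⟩ := exists_top (n := n) (m := j + j') (by omega)
    (fun t => if t < j then i + t else i' + (t - j))
    (fun t ht => by split_ifs <;> omega) fun s _ t _ e => by split_ifs at e <;> omega
  exact ⟨s, fun t _ ht => by rw [hs t (by omega), if_pos (by omega)]; omega,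
    fun t _ ht => by rw [hs t (by omega), if_neg (by omega)]; omega⟩

theorem top_sh {i : ℕ} (hi : i + j ≤ n) : ∃ s : (⊤ : Subgroup (Perm (Fin n))), Sh s.1 0 j i :=
  (top_sh_two (j' := 0) (i' := 0) (by omega) hi (by omega)).imp fun _ h => h.1

theorem exists_supp (hP : alternatingGroup (Fin n) ≤ P) (hk : k ≤ n) {t : ℕ} (ht : t + 2 ≤ k)
    (ht' : t ≤ 2) : ∃ u : P, (∀ t : Fin n, k ≤ t → u.1 t = t) ∧ Sh u.1 0 2 t := by
  obtain rfl | rfl | rfl : t = 0 ∨ t = 1 ∨ t = 2 := by omega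
  · exact ⟨1, fun _ _ => rfl, sh_one _ _⟩
  · refine ⟨⟨sw 0 1 (by omega) (by omega) * sw (n := n) 1 2 (by omega) (by omega),
      hP (by simp [mem_alternatingGroup, sign_sw])⟩, fun t h => Fin.ext ?_, fun t _ h => ?_⟩ <;>
    simp only [Perm.mul_apply, sw_val] <;> split_ifs <;> first | omega | contradiction
  · refine ⟨⟨sw 0 2 (by omega) (by omega) * sw (n := n) 1 3 (by omega) (by omega),
      hP (by simp [mem_alternatingGroup, sign_sw])⟩, fun t h => Fin.ext ?_, fun t _ h => ?_⟩ <;>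
    simp only [Perm.mul_apply, sw_val] <;> split_ifs <;> first | omega | contradiction

theorem gen_windows (hP : P = ⊤ ∨ P = alternatingGroup (Fin n)) (hk : 3 ≤ k) (hn : k ≤ n)
    (K : Subgroup P) (h : ∀ i (s : P), i + k ≤ n →
      (∀ t : Fin n, (t : ℕ) < i ∨ i + k ≤ t → s.1 t = t) → s ∈ K) : K = ⊤ := by
  have hA : alternatingGroup (Fin n) ≤ P := by rcases hP with rfl | rfl <;> simp
  obtain ⟨m, rfl⟩ : ∃ m, n = m + 1 := ⟨n - 1, by omega⟩
  have h1 : ∀ i (hi : i + 1 < m + 1),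
      sw 0 1 (by omega) (by omega) * sw i (i + 1) (by omega) hi ∈ K.map P.subtype := fun i => by
    induction i with
    | zero => intro _; rw [sw_mul_self]; exact one_mem _
    | succ i ih =>
      intro hi
      have := mul_mem (ih (by omega)) (Subgroup.mem_map_of_mem P.subtype (h (min i (m + 1 - k))
        ⟨sw i (i + 1) (by omega) (by omega) * sw (i + 1) (i + 1 + 1) (by omega) hi,
          hA (by simp [mem_alternatingGroup, sign_sw])⟩ (by omega) fun t ht => Fin.ext (by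
            simp only [Perm.mul_apply, sw_val]; split_ifs <;> omega)))
      rwa [Subgroup.subtype_apply, mul_assoc, ← mul_assoc (sw i _ _ _), sw_mul_self, one_mul] at this
  have h2 : ∀ g, g ∈ K.map P.subtype ∨ sw 0 1 (by omega) (by omega) * g ∈ K.map P.subtype := fun g => by
    have hg : g ∈ _ := mclosure_swap_castSucc_succ m ▸ Submonoid.mem_top g
    induction hg using Submonoid.closure_induction_left with
    | one => exact Or.inl (one_mem _)
    | mul_left x hx g _ ih =>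
      obtain ⟨i, rfl⟩ := hx
      have := h1 i (by omega)
      rcases ih with ih | ih
      · exact Or.inr (mul_assoc _ _ g ▸ mul_mem this ih)
      · have := mul_mem (inv_mem this) ih
        rw [_root_.mul_inv_rev, mul_assoc, inv_mul_cancel_left, sw, swap_inv] at this
        exact Or.inl this
  refine eq_top_iff.2 fun g _ => (Subgroup.mem_map_iff_mem P.subtype_injective).1
    ((h2 g).elim id fun e => ?_)
  rcases hP with rfl | rfl
  · have := mul_mem (Subgroup.mem_map_of_mem (Subgroup.subtype _) (h 0 ⟨sw 0 1 (by omega) (by omega),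
      trivial⟩ (by omega) fun t ht => Fin.ext (by simp only [sw_val]; split_ifs <;> omega))) e
    rwa [Subgroup.subtype_apply, ← mul_assoc, sw_mul_self, one_mul] at this
  · have := mem_alternatingGroup.1 (Subgroup.map_subtype_le K e)
    rw [map_mul, mem_alternatingGroup.1 g.2, sign_sw _ _ (by omega)] at this
    exact absurd this (by decide)

theorem card_le_sub : Fintype.card {t : Fin n // j ≤ (t : ℕ)} = n - j := by
  rcases le_or_gt n j with h | h
  · rw [Nat.sub_eq_zero_of_le h, Fintype.card_eq_zero_iff]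
    exact ⟨fun t => by have := t.1.2; have := t.2; omega⟩
  · rw [Fintype.card_subtype, ← Fin.card_Ici ⟨j, h⟩]
    congr 1; ext t; simp [Fin.le_def]

theorem card_lt_le : Fintype.card {t : Fin n // (t : ℕ) < j} ≤ j := by
  simpa using Fintype.card_le_of_injective (fun t : {t : Fin n // (t : ℕ) < j} => (⟨t.1, t.2⟩ : Fin j))
    fun s t e => Subtype.ext (Fin.ext (by simpa using e))

theorem genBy_top (p : Fin n → Prop) [DecidablePred p] :
    GenBy ((fixOut p).comap (⊤ : Subgroup (Perm (Fin n))).subtype) 2 :=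
  (genBy_fixOut p).comap (Subgroup.subtype_injective _) (by simp)

include hF

theorem pres_glue_three (hq : 3 < q) (hn : 5 ≤ n) {d r d' r' : ℕ} (hS : Pres (SU 3 F q) d r)
    (hA : Pres (alternatingGroup (Fin n)) d' r') (hg : GenBy (⊤ : Subgroup (SU 2 F q)) 2) :
    Pres (SU n F q) (d + d') (r + r' + if n = 5 then 7 else 9) := by
  obtain ⟨w, hw⟩ := exists_pm (F := F) q (alternatingGroup (Fin n)) fun s hs => by
    simp [mem_alternatingGroup.1 hs]
  have e2 : ∀ i, i + 2 ≤ n → ∃ s : alternatingGroup (Fin n), Sh s.1 0 2 i := fun i =>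
    alt_sh (by omega)
  refine (pres_of_imp hF hw (by omega) le_rfl hS hA (genBy_stab_alt _) (fun i => alt_sh hn)
    (gen_windows (Or.inr rfl) le_rfl (by omega)) ((imp_cen hF hw _ (by omega) (genBy_stab_alt _) hg).and
      (imp_comm hF hw _ (by omega) (by omega) hg hg (e2 0 (by omega)) (e2 2 (by omega)) le_rfl
        (by omega))) fun Γ _ θ π hD ⟨h1, h2⟩ => ?a).mono ?b
  case a =>
    have key := fun i (hi : i + 3 ≤ n) t (ht : t + 2 ≤ 3) => hD.blk hF hw _ h1 (alt_sh hn hi) ht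
      (exists_supp le_rfl (by omega) ht (by omega))
    refine chain3 hF hq (by omega) _ (fun i hi a => ?_) fun i j h3 h4 a b => ?_
    · rw [key i (by omega), key (i + 1) hi]
    · rw [key i (by omega), key j h4]
      exact h1.comm h1 (e2 0 (by omega)) (e2 2 (by omega)) h2 (alt_sh_two hn (by omega) (by omega)) a b
  case b =>
    rw [if_pos card_lt_le, card_le_sub]
    split_ifs <;> omega

theorem pres_glue_four (hq : 2 < q) (hn : 5 ≤ n) {d r d' r' : ℕ} (hS : Pres (SU 4 F q) d r)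
    (hA : Pres (alternatingGroup (Fin n)) d' r') (hg : GenBy (⊤ : Subgroup (SU 2 F q)) 2) :
    Pres (SU n F q) (d + d') (r + r' + 6) := by
  obtain ⟨w, hw⟩ := exists_pm (F := F) q (alternatingGroup (Fin n)) fun s hs => by
    simp [mem_alternatingGroup.1 hs]
  have e2 : ∀ i, i + 2 ≤ n → ∃ s : alternatingGroup (Fin n), Sh s.1 0 2 i := fun i =>
    alt_sh (by omega)
  have e4 : ∀ i, i + 4 ≤ n → ∃ s : alternatingGroup (Fin n), Sh s.1 0 4 i := fun i hi => by
    obtain ⟨s, h1, h2⟩ := alt_sh_two hn (le_refl (i + 2)) hi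
    refine ⟨s, fun t _ ht => ?_⟩
    rcases lt_or_ge (t : ℕ) 2 with h | h
    · exact h1 t (by omega) h
    · have := h2 t h ht; omega
  refine (pres_of_imp hF hw (by omega) (by omega) hS hA (genBy_stab_alt _) e4
    (gen_windows (Or.inr rfl) (by omega) (by omega))
    (imp_cen hF hw _ (by omega) (genBy_stab_alt _) hg) fun Γ _ θ π hD h1 => ?_).mono ?_
  · have key := fun i (hi : i + 4 ≤ n) t (ht : t + 2 ≤ 4) => hD.blk hF hw _ h1 (e4 i hi) ht
      (exists_supp le_rfl (by omega) ht (by omega))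
    refine chain4' hF hq (by omega) _ _ key fun i j h3 h4 => h1.comm h1 (e2 0 (by omega))
      (e2 2 (by omega)) (fun a b => ?_) (alt_sh_two hn h3 h4)
    have := ((commute_blk (n := 4) (i := 0) (by omega) (by omega) le_rfl a b).map
      (tr (θ.comp Coprod.inr) 4 (θ.comp Coprod.inl) 0))
    rwa [key 0 (by omega) 0, key 0 (by omega) 2] at this
  · split_ifs <;> omega

theorem pres_glue_even (h2 : (2 : F) = 0) (hn : 5 ≤ n) {d r d' r' g : ℕ} (hS : Pres (SU 4 F q) d r)
    (hA : Pres (Perm (Fin n)) d' r') (hg : GenBy (⊤ : Subgroup (SU 2 F q)) 2)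
    (hg' : GenBy (⊤ : Subgroup (SU 3 F q)) g) :
    Pres (SU n F q) (d + d') (r + r' + (6 + 4 * g + if n = 5 then 0 else g * g)) := by
  obtain ⟨w, hw⟩ := exists_pm (F := F) q (⊤ : Subgroup (Perm (Fin n))) fun s _ => by
    rcases Int.units_eq_one_or (sign s) with e | e <;> simp [e]
    linear_combination -h2
  have h6 : Imp (Coprod.lift (blk 4 n 0 (by omega)) w) (if n = 5 then 0 else g * g) fun _ _ θ =>
      6 ≤ n → ∀ a b, Commute
        (tr (θ.comp Coprod.inr) 3 ((θ.comp Coprod.inl).comp (blk 3 4 0 (by omega))) 0 a)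
        (tr (θ.comp Coprod.inr) 3 ((θ.comp Coprod.inl).comp (blk 3 4 0 (by omega))) 3 b) := by
    split_ifs with h
    · exact imp_of_forall fun _ _ _ _ => by omega
    · exact (imp_comm hF hw _ _ _ hg' hg' (top_sh (by omega)) (top_sh (by omega)) le_rfl
        (by omega)).mono le_rfl fun _ _ _ h _ => h
  refine (pres_of_imp hF hw (by omega) (by omega) hS (hA.congr Subgroup.topEquiv.symm) (genBy_top _)
    (fun i => top_sh) (gen_windows (Or.inl rfl) (by omega) (by omega))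
    ((((imp_cen hF hw _ (by omega) (genBy_top _) hg).and
      (imp_cen hF hw _ (by omega) (genBy_top _) hg')).and (imp_comm hF hw _ (by omega) (by omega) hg hg'
        (top_sh (i := 0) (by omega)) (top_sh (i := 2) hn) le_rfl hn)).and h6)
    fun Γ _ θ π hD ⟨⟨⟨h1, h3⟩, h4⟩, h5⟩ => ?_).mono (by omega)
  have k2 := fun i (hi : i + 4 ≤ n) t (ht : t + 2 ≤ 4) => hD.blk hF hw _ h1 (top_sh hi) ht
    (exists_supp le_top (by omega) ht (by omega))
  have k0 := fun i (hi : i + 4 ≤ n) => hD.blk hF hw _ h3 (top_sh hi) (t := 0) (by omega)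
    ⟨1, fun _ _ => rfl, sh_one _ _⟩
  have k1 := fun i (hi : i + 4 ≤ n) => hD.blk hF hw _ h3 (top_sh hi) (t := 1) (by omega) (by
    refine ⟨⟨sw 0 1 (by omega) (by omega) * sw 1 2 (by omega) (by omega) * sw 2 3 (by omega) (by omega),
      trivial⟩, fun t h => Fin.ext ?_, fun t _ h => ?_⟩ <;>
    simp only [Perm.mul_apply, sw_val] <;> split_ifs <;> first | omega | contradiction)
  refine chain4 hF (by omega) _ (fun i hi a => ?_) (fun i j h6 h7 a b => ?_) (fun i j h6 h7 a b => ?_)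
    fun i j h6 h7 a b => ?_
  · rw [k1 i (by omega), k0 (i + 1) hi]
  · rw [k2 i (by omega), k1 j h7]
    exact h1.comm h3 (top_sh (by omega)) (top_sh hn) h4 (top_sh_two (by omega) (by omega) (by omega)) a b
  · rw [k0 i (by omega), k2 j h7]
    exact (h1.comm h3 (top_sh (by omega)) (top_sh hn) h4
      (top_sh_two (by omega) (by omega) (by omega)) b a).symm
  · rw [k0 i (by omega), k1 j h7]
    exact h3.comm h3 (top_sh (by omega)) (top_sh (by omega)) (h5 (by omega))
      (top_sh_two (by omega) (by omega) (by omega)) a b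

end CfsgLib.Phan
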