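import Mathlib
import Cfsg.Agent.Lib.Phan.Glue
import Cfsg.Agent.Lib.Pres.SL2
import Cfsg.Agent.Lib.SL2.Normalizer
import Cfsg.Agent.Lib.Unitary.SU2

/-!
# Two generators for `SL₂(q)` and `SU n`; a presentation of `SU 4`
-/

set_option autoImplicit false

namespace CfsgLib.Phan
open Cfsg Matrix CfsgLib.Unitary CfsgLib.Pres CfsgLib.ClPres Function Subgroup MatrixGroups

section SL2
open CfsgLib.SL2 CfsgLib.RootSub CfsgLib.Pres.FieldMod

variable {k : Type*} [Field k]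

theorem eq_top_of_uu {K : Subgroup SL(2, k)} (h : ∀ s, uu s ∈ K) {t : k} (h' : uu t * ww ∈ K) :
    K = ⊤ := by
  have h2 : ww ∈ K := (mul_mem_cancel_left (h t)).1 h'
  rw [eq_top_iff, ← upper_sup_lower, sup_le_iff]
  refine ⟨fun x hx => ?_, fun x hx => ?_⟩
  · obtain ⟨t, rfl⟩ := mem_upper_iff.1 hx
    exact h t
  · obtain ⟨t, rfl⟩ := mem_lower_iff.1 hx
    convert mul_mem (mul_mem h2 (h (-t))) (inv_mem h2) using 1
    apply ext2 <;> simp [mul_ap, inv_00, inv_01, inv_10, inv_11]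

theorem closure_dg [Finite k] {ζ : k} (hζ0 : ζ ≠ 0) (hζ : ∀ t : k, t ≠ 0 → ∃ i : ℕ, ζ ^ i = t)
    (h1 : ζ ^ 2 ≠ 1) {t : k} (ht : t ≠ 0) : closure {dg (Units.mk0 ζ hζ0), uu t * ww} = ⊤ := by
  obtain ⟨K, hK⟩ : ∃ K, K = closure {dg (Units.mk0 ζ hζ0), uu t * ww} := ⟨_, rfl⟩
  have h0 : dg (Units.mk0 ζ hζ0) ∈ K := hK ▸ subset_closure (by simp)
  have h2 : uu t * ww ∈ K := hK ▸ subset_closure (by simp)
  have hc : (ζ ^ 2 - 1) * t ≠ 0 := mul_ne_zero (sub_ne_zero.2 h1) ht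
  have h3 : uu ((ζ ^ 2 - 1) * t) ∈ K := by
    convert mul_mem h0 (mul_mem (mul_mem h2 h0) (inv_mem h2)) using 1
    apply ext2 <;> simp [mul_ap, inv_00, inv_01, inv_10, inv_11, hζ0] <;> field_simp <;> ring
  have hm : IsMod (ζ ^ 2) (dg (Units.mk0 ζ hζ0)) (uu ((ζ ^ 2 - 1) * t))
      fun s => uu ((ζ ^ 2 - 1) * t * s) :=
    ⟨fun a b => by rw [mul_add, uu_add], by rw [mul_one], fun s => by
      rw [(isMod_uu hζ0).conj, mul_left_comm]⟩
  refine hK ▸ eq_top_of_uu (fun s => ?_) h2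
  obtain ⟨f, hf⟩ := gen_sq hζ0 hζ (((ζ ^ 2 - 1) * t)⁻¹ * s)
  have := hm.pw_aeval f
  rw [hf, mul_inv_cancel_left₀ hc] at this
  rw [← this]
  refine (closure_le _).2 ?_ (pw_mem f _ _)
  rintro _ ⟨i, rfl⟩
  exact mul_mem (mul_mem (pow_mem h0 i) h3) (inv_mem (pow_mem h0 i))

theorem sl2_coprime_gen (k : Type*) [Field k] [Fintype k] : ∃ (a b : SL(2, k)) (m m' : ℕ),
    m.Coprime m' ∧ a ^ m = 1 ∧ b ^ m' = 1 ∧ closure {a, b} = ⊤ := by
  obtain ⟨ζ, hζ0, hζ⟩ := exists_gen k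
  obtain ⟨d, hd⟩ := exists_noEig (F := k)
  have hd' : NoEig (uu (SL2.tr d) * ww) := by
    rw [noEig_iff, show SL2.tr (uu (SL2.tr d) * ww) = SL2.tr d by simp [SL2.tr, mul_ap]]
    exact (noEig_iff d).1 hd
  have hu : ∀ s : k, uu s ^ ringChar k = 1 := fun s => by simp [uu_pow, uu_zero]
  by_cases h1 : ζ ^ 2 = 1
  · refine ⟨uu 1, _, _, _, coprime_ringChar_card_add_one, hu 1, hd'.pow_card,
      eq_top_of_uu (fun s => ?_) (subset_closure (Or.inr rfl))⟩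
    have h2 : uu 1 ∈ Subgroup.closure {uu 1, uu (SL2.tr d) * ww} := subset_closure (by simp)
    rcases eq_or_ne s 0 with rfl | hs
    · rw [uu_zero]; exact one_mem _
    obtain ⟨i, rfl⟩ := hζ s hs
    rcases sq_eq_one_iff.1 (show (ζ ^ i) ^ 2 = 1 by rw [pow_right_comm, h1, one_pow]) with e | e <;>
      rw [e]
    · exact h2
    · rw [uu_neg]; exact inv_mem h2
  by_cases h2 : (2 : k) = 0
  · refine ⟨_, _, _, _, ?_, split_pow_card (IsConj.refl _), hd'.pow_card, closure_dg hζ0 hζ h1 fun e =>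
      hd.tr_sq_ne (by rw [e]; linear_combination -2 * h2)⟩
    have h3 := coprime_ringChar_card_sub_one (F := k)
    rw [CharP.ringChar_of_prime_eq_zero Nat.prime_two (by exact_mod_cast h2)] at h3
    rw [show Fintype.card k + 1 = 2 + (Fintype.card k - 1) by have := Fintype.card_pos (α := k); omega]
    simpa using h3.symm
  · refine ⟨_, _, _, _, coprime_ringChar_card_sub_one.symm, split_pow_card (IsConj.refl _), ?_,
      closure_dg hζ0 hζ h1 h2⟩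
    rw [show (uu 2 * ww : SL(2, k)) = ll 1 * uu (-1) * (ll 1)⁻¹ by
      apply ext2 <;> simp [mul_ap, inv_00, inv_01, inv_10, inv_11]; norm_num, conj_pow, hu]
    simp

end SL2

universe u

variable {F : Type u} [Field F] {q n k : ℕ} [Fintype F] (hF : Fintype.card F = q ^ 2)
include hF

theorem su2_coprime_gen : ∃ (a b : SU 2 F q) (m m' : ℕ),
    m.Coprime m' ∧ a ^ m = 1 ∧ b ^ m' = 1 ∧ closure {a, b} = ⊤ := by
  classical
  obtain ⟨e⟩ := nonempty_su2_equiv_sl2 hF (K := fixedSubfield hF)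
    (by rw [← Nat.card_eq_fintype_card, card_fixedSubfield])
  obtain ⟨a, b, m, m', h1, h2, h3, h4⟩ := sl2_coprime_gen (fixedSubfield hF)
  refine ⟨e.symm a, e.symm b, m, m', h1, by rw [← map_pow, h2, map_one], by rw [← map_pow, h3, map_one], ?_⟩
  have := congrArg (Subgroup.map e.symm.toMonoidHom) h4
  rwa [MonoidHom.map_closure, Set.image_pair, map_top_of_surjective _ e.symm.surjective] at this

theorem genBy_su2 : GenBy (⊤ : Subgroup (SU 2 F q)) 2 := by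
  obtain ⟨a, b, -, -, -, -, -, h⟩ := su2_coprime_gen hF
  exact ⟨[a, b], le_rfl, by rw [← h]; congr 1; ext; simp⟩

theorem isCyclic_center_SU (hn : 2 ≤ n) : IsCyclic (center (SU n F q)) := by
  have h : ∀ g : center (SU n F q), g.1.1.1 = g.1.1.1 ⟨0, by omega⟩ ⟨0, by omega⟩ • 1 := fun g => by
    obtain ⟨a, ha⟩ := (mem_center_SU_iff hF hn).1 g.2
    rw [ha]; simp
  refine isCyclic_of_injective_ringHom (R := F) ⟨⟨fun g => g.1.1.1 ⟨0, by omega⟩ ⟨0, by omega⟩, by simp⟩,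
    fun g g' => ?_⟩ fun g g' e => Subtype.ext (Subtype.ext (Subtype.ext ?_))
  · change (g.1.1.1 * g'.1.1.1) _ _ = _
    conv_lhs => rw [h g']
    simp [mul_comm]
  · rw [h g, h g']; exact congrArg (· • _) e

theorem pres_psu {d r : ℕ} (hn : 2 ≤ n) (h : Pres (SU n F q) d r) : Pres (PSU n F q) d (r + 1) :=
  have := isCyclic_center_SU hF hn
  h.quot_cyclic _

theorem exists_shift : ∃ c : SU n F q, ∀ k i (hi : i + 1 + k ≤ n) (A : SU k F q),
    c * blk k n i (by omega) A * c⁻¹ = blk k n (i + 1) hi A := by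
  rcases n with _ | n
  · exact ⟨1, fun k i hi => by omega⟩
  have h : ∀ f : Fin n → Fin (n + 1), Injective f → ON q fun i => (ee (f i) : Fin (n + 1) → F) :=
    fun f hf => ⟨fun i => by simp [herm_ee_ee hF], fun i j e => by simp [herm_ee_ee hF, hf.eq_iff, e]⟩
  obtain ⟨c, hc⟩ := (h _ (Fin.castSucc_injective n)).exists_su hF (h _ (Fin.succ_injective n)) (by simp)
  refine ⟨c, fun k i hi A => conj_emb hF (fun a => (hc ⟨i + a, by omega⟩).trans ?_) A⟩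
  exact congrArg ee (Fin.ext (by simp; omega))

theorem eq_top_of_shift (hk : 3 ≤ k ∨ (2 ≤ k ∧ 2 < q)) (hn : 0 + k ≤ n) {c : SU n F q}
    (hc : ∀ i (hi : i + 1 + k ≤ n) (A : SU k F q),
      c * blk k n i (by omega) A * c⁻¹ = blk k n (i + 1) hi A) {T : Subgroup (SU n F q)} (h1 : c ∈ T)
    (h2 : ∀ A, blk k n 0 hn A ∈ T) : T = ⊤ :=
  gen_blk hF hk (by omega) T fun i => by
    induction i with
    | zero => exact fun _ => h2
    | succ i ih => exact fun hi A => hc i hi A ▸ mul_mem (mul_mem h1 (ih _ A)) (inv_mem h1)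

theorem two_gen_of_two_lt (hq : 2 < q) (hn : 4 ≤ n) : ∃ a b : SU n F q, closure {a, b} = ⊤ := by
  obtain ⟨c, hc⟩ := exists_shift hF (n := n)
  obtain ⟨a, b, m, m', h1, h2, h3, h4⟩ := su2_coprime_gen hF
  obtain ⟨x, hx⟩ : ∃ x, x = blk 2 n 0 (by omega) a := ⟨_, rfl⟩
  obtain ⟨y, hy⟩ : ∃ y, y = blk 2 n 2 hn b := ⟨_, rfl⟩
  have hxy : Commute x y := hx ▸ hy ▸ commute_blk _ _ le_rfl a b
  obtain ⟨T, hT⟩ : ∃ T, T = closure {c, x * y} := ⟨_, rfl⟩
  have k1 : c ∈ T := hT ▸ subset_closure (by simp)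
  have k2 : x * y ∈ T := hT ▸ subset_closure (by simp)
  have k3 : x ∈ T := by
    have := pow_mem k2 m'
    rw [hxy.mul_pow, hy, ← map_pow _ b, h3, map_one, mul_one] at this
    refine zpowers_le.2 this (mem_zpowers_pow_iff.2 ?_)
    exact (h1.coprime_dvd_left (orderOf_dvd_of_pow_eq_one (by rw [hx, ← map_pow, h2, map_one]))).symm
  have k4 := (mul_mem_cancel_left k3).1 k2
  rw [hy, ← hc 2 1, ← hc 2 0, mul_mem_cancel_right (inv_mem k1), mul_mem_cancel_left k1,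
    mul_mem_cancel_right (inv_mem k1), mul_mem_cancel_left k1] at k4
  refine ⟨c, x * y, hT ▸ eq_top_of_shift hF (by omega) (by omega) (hc 2) k1 fun A => ?_⟩
  refine (closure_le (T.comap (blk 2 n 0 _))).2 ?_ (h4 ▸ mem_top A)
  rintro _ (rfl | rfl)
  exacts [mem_comap.2 (hx ▸ k3), k4]

theorem two_gen_of_block (hn : 4 ≤ n) {x : SU 3 F q}
    (h : closure {blk 3 4 0 (by omega) x, blk 3 4 1 (by omega) x} = ⊤) :
    ∃ a b : SU n F q, closure {a, b} = ⊤ := by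
  obtain ⟨c, hc⟩ := exists_shift hF (n := n)
  obtain ⟨T, hT⟩ : ∃ T, T = closure {c, blk 3 n 0 (by omega) x} := ⟨_, rfl⟩
  have k1 : c ∈ T := hT ▸ subset_closure (by simp)
  have k2 : blk 3 n 0 (by omega) x ∈ T := hT ▸ subset_closure (by simp)
  refine ⟨_, _, hT ▸ eq_top_of_shift hF (k := 4) (by omega) (by omega) (hc 4) k1 fun A => ?_⟩
  refine (closure_le (T.comap (blk 4 n 0 _))).2 ?_ (h ▸ mem_top A)
  rintro _ (rfl | rfl) <;> rw [SetLike.mem_coe, mem_comap, blk_blk]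
  exacts [k2, hc 3 0 _ x ▸ mul_mem (mul_mem k1 k2) (inv_mem k1)]

theorem pres_four (hq : 3 < q) {d r : ℕ} (hS : Pres (SU 3 F q) d r) :
    Pres (SU 4 F q) (d + 1) (r + (2 * 1 + 2 * 2 + 1)) := by
  obtain ⟨c, hc⟩ := exists_shift hF (n := 4)
  obtain ⟨θ₀, h1, h2⟩ : ∃ θ₀ : Word (SU 3 F q) (Fin 1) →* SU 4 F q,
      (∀ a, θ₀ (wm a) = blk 3 4 0 (by omega) a) ∧ θ₀ (wg 0) = c :=
    ⟨ev (blk 3 4 0 (by omega)) fun _ => c, fun a => by simp, by simp⟩
  obtain ⟨σ, hσ⟩ : ∃ σ : SU 3 F q →* Word (SU 3 F q) (Fin 1), ∀ a, σ a = wg 0 * wm a * (wg 0)⁻¹ :=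
    ⟨(MulAut.conj (wg 0)).toMonoidHom.comp wm, fun _ => rfl⟩
  have h3 : ∀ a, θ₀ (σ a) = blk 3 4 1 (by omega) a := fun a => by
    rw [hσ, map_mul, map_mul, map_inv, h1, h2, hc 3 0]
  have h4 : (wm.range ⊔ σ.range).map θ₀ = ⊤ := gen_blk hF (k := 3) (by omega) (by omega) _ fun i hi a => by
    obtain rfl | rfl : i = 0 ∨ i = 1 := by omega
    · exact ⟨_, mem_sup_left ⟨a, rfl⟩, h1 a⟩
    · exact ⟨_, mem_sup_right ⟨a, rfl⟩, h3 a⟩
  have h5 : ∀ a, θ₀ (wm (blk 2 3 1 (by omega) a)) = θ₀ (σ (blk 2 3 0 (by omega) a)) := fun a => by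
    rw [h1, h3, blk_blk, blk_blk]
  refine (((imp_gen (genBy_su2 hF) (θ₀ := θ₀) (k := 1)
    (R := fun a _ _ θ => θ (wm (blk 2 3 1 (by omega) a)) = θ (σ (blk 2 3 0 (by omega) a)))
    (fun a _ => imp_eq (h5 a)) (fun _ _ _ => by simp)
    (fun _ _ _ _ _ e e' => by simp only [map_mul, e, e']) fun _ _ _ _ e => by simp only [map_inv, e]).and
    (imp_commute_gen₂ (genBy_su2 hF) (genBy_su2 hF) (wm.comp (blk 2 3 0 (by omega)))
      (σ.comp (blk 2 3 1 (by omega))) fun a _ b _ => ?_)).and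
    (imp_mem (a := wg 0) (h4 ▸ mem_top _))).pres (pres_word hS 1) (fun x => ?_) fun Γ _ θ π k1 k2 k3 => ?_
  · rw [MonoidHom.comp_apply, MonoidHom.comp_apply, h1, h3, blk_blk, blk_blk]
    exact commute_blk _ _ le_rfl a b
  · obtain ⟨y, -, e⟩ : x ∈ (wm.range ⊔ σ.range).map θ₀ := h4 ▸ mem_top x
    exact ⟨y, e⟩
  obtain ⟨Φ, hΦ⟩ := chain3 hF hq (n := 4) (by omega) (fun i => θ.comp (if i = 0 then wm else σ))
    (fun i hi a => by obtain rfl : i = 0 := by omega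
                      exact k3.1.1 a trivial)
    fun i j hi hj a b => by
      obtain ⟨rfl, rfl⟩ : i = 0 ∧ j = 1 := by omega
      exact k3.1.2 b trivial a trivial
  have e0 : ∀ a, θ (wm a) ∈ Φ.range := fun a => ⟨_, hΦ 0 (by omega) a⟩
  have e1 : θ (wg 0) ∈ Φ.range := by
    refine map_le_iff_le_comap.2 (sup_le ?_ ?_) k3.2 <;> rintro _ ⟨a, rfl⟩
    exacts [e0 a, ⟨_, hΦ 1 (by omega) a⟩]
  have e2 := eq_top_of_word k1 e0 fun i => Subsingleton.elim 0 i ▸ e1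
  have e3 : ∀ a, π (Φ a) = a := hom_ext_blk hF (k := 3) (by omega) (by omega) (φ := π.comp Φ)
    (ψ := MonoidHom.id _) fun i hi a => by
      rw [MonoidHom.comp_apply, hΦ, MonoidHom.comp_apply, k2]
      obtain rfl | rfl : i = 0 ∨ i = 1 := by omega
      exacts [h1 a, h3 a]
  refine (injective_iff_map_eq_one _).2 fun x hx => ?_
  obtain ⟨a, rfl⟩ : x ∈ Φ.range := e2 ▸ mem_top x
  rw [← e3 a, hx, map_one]

end CfsgLib.Phan
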