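import Mathlib
import Cfsg.Agent.Lib.Phan.Gen
import Cfsg.Agent.Lib.Phan.Enum2
import Cfsg.Agent.Lib.Phan.Enum3
import Cfsg.Agent.Lib.Classical.SmallIso

/-!
# Presentations of `SU₄(2)`, `SU₃(3)` and `SU₄(3)`
-/

set_option autoImplicit false

namespace CfsgLib.Phan
open Cfsg Matrix CfsgLib.Unitary CfsgLib.Pres CfsgLib.ClPres CfsgLib.Classical Function
open CfsgLib.CosetEnum (evL gen Bound ev_nil ev_cons ev_mem ev_mem_gen evL_two_mul)

section Words

variable {G : Type*} [Group G]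

theorem cev_congr {g g' : ℕ → G} : ∀ {w : List ℕ}, (∀ x ∈ w, g (x / 2) = g' (x / 2)) →
    CosetEnum.ev g w = CosetEnum.ev g' w
  | [], _ => rfl
  | x :: w, h => by
    rw [ev_cons, ev_cons, cev_congr fun y hy => h y (List.mem_cons_of_mem _ hy), evL, evL,
      h x List.mem_cons_self]

theorem pres_of_bound [Finite G] (g : ℕ → G) (d : ℕ) {rels ys : List (List ℕ)} {m : ℕ}
    (hl : ∀ r ∈ rels, ∀ x ∈ r, x < 2 * d) (hr : ∀ r ∈ rels, CosetEnum.ev g r = 1)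
    (hgen : ∀ T : Subgroup G, (∀ i < d, g i ∈ T) → T = ⊤) (hys : ∀ i < d, [2 * i] ∈ ys)
    (hb : ∀ (Γ : Type) [Group Γ] (v : ℕ → Γ), (∀ r ∈ rels, CosetEnum.ev v r = 1) → Bound v ys m)
    (hm : m ≤ Nat.card G) : Pres G d rels.length := by
  let o : ℕ → FreeGroup (Fin d) := fun i => if h : i < d then FreeGroup.of ⟨i, h⟩ else 1
  have h1 := hgen (Subgroup.closure (Set.range fun i : Fin d => g i))
    fun i hi => Subgroup.subset_closure ⟨⟨i, hi⟩, rfl⟩
  rw [← List.length_map (CosetEnum.ev o)]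
  refine (presOn_of_univ (g := fun i : Fin d => g i) _ h1 (fun x hx => ?_)
    fun Γ _ v π h2 h3 h4 => ?_).pres (Fintype.card_fin d)
  · obtain ⟨r, hx', rfl⟩ := List.mem_map.1 hx
    rw [CosetEnum.map_ev, ← hr r hx']
    exact cev_congr fun x h => by
      have : x / 2 < d := by have := hl r hx' x h; omega
      simp [o, this]
  · obtain ⟨k1, k2⟩ := hb Γ (fun i => FreeGroup.lift v (o i)) fun r hx =>
      (CosetEnum.map_ev _ o r).symm.trans (h4 _ (List.mem_map_of_mem hx))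
    have e : gen (fun i => FreeGroup.lift v (o i)) ys = ⊤ := by
      rw [eq_top_iff, ← h3, Subgroup.closure_le]
      rintro _ ⟨i, rfl⟩
      have := ev_mem_gen (fun i => FreeGroup.lift v (o i)) (hys i i.2)
      simpa [ev_cons, ev_nil, evL_two_mul, o] using this
    rw [e] at k1 k2
    have : Finite Γ := Subgroup.topEquiv.finite_iff.1 k1
    refine (Surjective.bijective_of_nat_card_le ?_ ((Subgroup.card_top (G := Γ) ▸ k2).trans hm)).1
    rw [← MonoidHom.range_eq_top]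
    exact hgen _ fun i hi => ⟨_, h2 ⟨i, hi⟩⟩

theorem eq_top_of_words [Finite G] {L : List G} (f : G → ℕ) (h : (L.map f).IsChain (· < ·))
    (hc : Nat.card G ≤ L.length) {T : Subgroup G} (hT : ∀ x ∈ L, x ∈ T) : T = ⊤ := by
  classical
  have := Fintype.ofFinite G
  have h1 : L.Nodup := (List.isChain_iff_pairwise.1 h).nodup.of_map f
  have h2 : L.toFinset = Finset.univ := Finset.eq_univ_of_card _ (le_antisymm (Finset.card_le_univ _)
    (by rwa [List.toFinset_card_of_nodup h1, ← Nat.card_eq_fintype_card]))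
  exact eq_top_iff.2 fun x _ => hT x (List.mem_toFinset.1 (h2 ▸ Finset.mem_univ x))

end Words

section Eval

variable {K : Type} [Field K] [DecidableEq K] {n q : ℕ} {α : Type}

/-- Strict evaluation of a field element. -/
def frc (L : List K) (a : K) (k : K → α) : α := L.foldr (fun b r => if a = b then k b else r) (k a)

omit [Field K] in
theorem frc_eq (L : List K) (a : K) (k : K → α) : frc L a k = k a := by
  induction L with
  | nil => rfl
  | cons b L ih =>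
    change (if a = b then k b else frc L a k) = _
    split_ifs with h
    exacts [by rw [h], ih]

/-- Strict evaluation of a list of field elements. -/
def frcL (L : List K) : List K → (List K → α) → α
  | [], k => k []
  | a :: l, k => frc L a fun b => frcL L l fun m => k (b :: m)

omit [Field K] in
theorem frcL_eq (L : List K) : ∀ (l : List K) (k : List K → α), frcL L l k = k l
  | [], _ => rfl
  | a :: l, k => by rw [frcL, frc_eq, frcL_eq]

/-- Strict evaluation of a word on a vector. -/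
def evV (L : List K) (mat : ℕ → Matrix (Fin n) (Fin n) K) :
    List ℕ → (Fin n → K) → ((Fin n → K) → α) → α
  | [], v, k => k v
  | x :: w, v, k => evV L mat w v fun y => frcL L (List.ofFn (mat x *ᵥ y)) fun l =>
      k fun i => l.getD i 0

/-- `g` realises the first `d` generators of the table `mat`. -/
def Tab (mat : ℕ → Matrix (Fin n) (Fin n) K) (d : ℕ) (g : ℕ → SU n K q) : Prop :=
  ∀ x < 2 * d, (evL g x).1.1 = mat x

variable {L : List K} {mat : ℕ → Matrix (Fin n) (Fin n) K} {d : ℕ} {g : ℕ → SU n K q}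

theorem Tab.evV_eq (hg : Tab mat d g) : ∀ {w : List ℕ} (_ : ∀ x ∈ w, x < 2 * d) (v : Fin n → K)
    (k : (Fin n → K) → α), evV L mat w v k = k (CosetEnum.ev g w • v)
  | [], _, v, k => by rw [evV, ev_nil, one_smul]
  | x :: w, h, v, k => by
    rw [evV, hg.evV_eq fun y hy => h y (List.mem_cons_of_mem _ hy), frcL_eq, ev_cons, mul_smul,
      su_smul_eq (evL g x), hg x (h x List.mem_cons_self)]
    congr 1
    ext i
    simp

omit [DecidableEq K] in
theorem Tab.gen (hg : Tab mat d g) {i : ℕ} (hi : i < d) : (g i).1.1 = mat (2 * i) := by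
  rw [← hg _ (by omega), evL_two_mul]

omit [DecidableEq K] in
theorem exists_tab [Fintype K] (hK : Fintype.card K = q ^ 2) (h : ∀ i < d, (mat (2 * i)).det = 1 ∧
    (mat (2 * i))ᵀ * (mat (2 * i)).map (· ^ q) = 1 ∧ mat (2 * i) * mat (2 * i + 1) = 1) :
    ∃ g : ℕ → SU n K q, Tab mat d g := by
  refine ⟨fun i => if hi : i < d then mkSU (mat (2 * i)) (h i hi).1 ((pres_iff hK _).2 (h i hi).2.1)
    else 1, fun x hx => ?_⟩
  have h1 : x / 2 < d := by omega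
  simp only [evL, dif_pos h1]
  split_ifs with h2
  · rw [coe_mkSU]; congr 1; omega
  · have h3 := (h _ h1).2.2
    rw [show 2 * (x / 2) + 1 = x by omega] at h3
    refine (Matrix.inv_eq_right_inv h3).symm ▸ (Matrix.inv_eq_left_inv ?_).symm
    exact congrArg (fun a : SU n K q => a.1.1) (inv_mul_cancel _)

/-- The check that a word is trivial. -/
def isOne (L : List K) (mat : ℕ → Matrix (Fin n) (Fin n) K) (d : ℕ) (w : List ℕ) : Bool :=
  w.all (· < 2 * d) && (List.finRange n).all fun j => evV L mat w (ee j) fun y => decide (y = ee j)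

theorem Tab.eq_one (hg : Tab mat d g) {w : List ℕ} (h : isOne L mat d w = true) :
    CosetEnum.ev g w = 1 := by
  simp only [isOne, Bool.and_eq_true, List.all_eq_true, decide_eq_true_eq] at h
  refine su_ext_ee fun j => ?_
  have := h.2 j (List.mem_finRange j)
  rw [hg.evV_eq h.1] at this
  rw [one_smul, of_decide_eq_true this]

/-- A number attached to a word. -/
def code (L : List K) (mat : ℕ → Matrix (Fin n) (Fin n) K) (enc : K → ℕ) (w : List ℕ) : ℕ :=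
  Nat.ofDigits 10 ((List.finRange n).map fun j => evV L mat w (ee j) fun y => List.ofFn (enc ∘ y)).flatten

theorem Tab.eq_top [Finite K] (hg : Tab mat d g) {enc : K → ℕ} {W : List (List ℕ)}
    (hW : ∀ w ∈ W, ∀ x ∈ w, x < 2 * d) (h : (W.map (code L mat enc)).IsChain (· < ·))
    (hc : Nat.card (SU n K q) ≤ W.length) {T : Subgroup (SU n K q)} (hT : ∀ i < d, g i ∈ T) : T = ⊤ := by
  refine eq_top_of_words (L := W.map (CosetEnum.ev g)) (fun a => Nat.ofDigits 10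
    ((List.finRange n).map fun j => List.ofFn (enc ∘ (a • (ee j : Fin n → K)))).flatten) ?_
    (by rwa [List.length_map]) fun x hx => ?_
  · rw [List.map_map]
    convert h using 1
    exact List.map_congr_left fun w hw => by simp only [code, hg.evV_eq (hW w hw), Function.comp_apply]
  · obtain ⟨w, hw, rfl⟩ := List.mem_map.1 hx
    exact ev_mem fun x h => hT _ (by have := hW w hw x h; omega)

omit [DecidableEq K] in
theorem shift_of [Fintype K] (hK : Fintype.card K = q ^ 2) {c : SU n K q}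
    (h : ∀ i j : Fin n, (j : ℕ) = i + 1 → c.1.1 *ᵥ (ee i : Fin n → K) = ee j) {k : ℕ} (i : ℕ)
    (hi : i + 1 + k ≤ n) (A : SU k K q) : c * blk k n i (by omega) A * c⁻¹ = blk k n (i + 1) hi A :=
  conj_emb hK (fun _ => h _ _ (by simp; omega)) A

/-- The matrices of a decimal table. -/
def tb (f : ℕ → K) (n t x : ℕ) : Matrix (Fin n) (Fin n) K :=
  Matrix.of fun r c => f (t / 10 ^ (n * n * x + n * r.val + c.val) % 10)

omit [DecidableEq K] in
theorem det_four (A : Matrix (Fin 4) (Fin 4) K) : A.det = ∑ j : Fin 4, (-1) ^ (j : ℕ) * A 0 j *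
    (fun B : Matrix (Fin 3) (Fin 3) K => B 0 0 * B 1 1 * B 2 2 - B 0 0 * B 1 2 * B 2 1 -
      B 0 1 * B 1 0 * B 2 2 + B 0 1 * B 1 2 * B 2 0 + B 0 2 * B 1 0 * B 2 1 - B 0 2 * B 1 1 * B 2 0)
      (A.submatrix Fin.succ j.succAbove) := by
  simp only [det_succ_row_zero A, det_fin_three]

end Eval

section Two

/-- The field element with a given code. -/
def f4 (n : ℕ) : GF4 := ⟨(n % 2 : ℕ), (n / 2 : ℕ)⟩

/-- The elements of the field. -/
def l4 : List GF4 := [⟨0, 0⟩, ⟨1, 0⟩, ⟨0, 1⟩, ⟨1, 1⟩]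

/-- Generators of `SU₃(2)`. -/
def m23 : ℕ → Matrix (Fin 3) (Fin 3) GF4 := tb f4 3 131233113131221122111132123111123132

/-- Generators of `SU₄(2)`. -/
def m24 : ℕ → Matrix (Fin 4) (Fin 4) GF4 := tb f4 4
  11101320123000011110123013200001000110000100001001000010000110001000013102330113100001310221012210000111013201231000011101230132

/-- The elements of `SU₃(2)`. -/
def w23 : List (List ℕ) :=
  [[0, 2, 2, 1], [0, 0, 3, 0, 2, 0], [0, 0, 3, 1, 2, 1], [0, 2, 2, 0], [0, 0, 3, 1, 2, 0],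
   [3, 0, 0, 3], [1, 2, 1, 2], [1, 3, 1, 3], [0, 0, 2, 0, 0, 2], [1, 3, 1, 2], [1, 2, 1, 3],
   [3, 0, 3, 1], [0, 3, 0, 3], [0, 3, 0, 2, 0, 0], [2, 0, 2, 0], [0, 3, 0, 2], [2, 1, 2, 0],
   [2, 0, 2, 1], [1, 2, 2, 1], [3, 0, 2, 0], [3, 1, 2, 1], [1, 2, 2, 0], [3, 1, 2, 0],
   [3, 0, 2, 1], [0, 2, 1, 2], [0, 3, 1, 3], [2, 0, 0, 2], [0, 3, 1, 2], [0, 2, 1, 3],
   [2, 0, 0, 3], [1, 3, 0, 3], [0, 3, 0, 0, 3, 1], [2, 0, 3, 0], [1, 3, 0, 2],
   [0, 0, 2, 1, 2, 0], [2, 0, 3, 1], [0, 0], [0, 0, 2, 2, 0, 0], [2, 2], [], [2, 2, 0, 0],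
   [0, 0, 2, 2], [0], [1], [1, 2, 2, 0, 0], [0, 2, 2, 0, 0], [1, 2, 2], [0, 2, 2],
   [0, 0, 2, 0, 0], [0, 0, 3, 0, 0], [3, 0, 3, 1, 3], [1, 2, 2, 1, 2], [0, 0, 3], [0, 0, 2],
   [0, 3, 1, 2, 2, 1], [0, 2, 2, 0, 2, 1], [0, 2, 0, 3, 0, 2], [0, 2, 2, 0, 2, 0],
   [0, 2, 0, 3, 0, 3], [0, 2, 2, 1, 2, 0], [2, 0, 0], [3, 0, 0], [2, 0, 0, 2, 2],
   [0, 2, 2, 1, 2], [2], [3], [0, 2, 2, 0, 0, 2], [0, 2, 2, 0, 0, 3], [0, 2, 0, 3, 1, 2],
   [0, 2, 0, 2, 1, 2], [0, 2, 0, 2, 1, 3], [0, 2, 0, 3, 1, 3], [2, 2, 0], [2, 2, 1],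
   [0, 3, 0, 2, 0], [0, 3, 1, 2, 0], [0, 3, 1, 2, 1], [0, 3, 0, 2, 1], [0, 3, 0, 2, 0, 3],
   [0, 3, 0, 2, 0, 2], [0, 2, 0, 2, 0, 2], [1, 2, 2, 0, 2, 0], [0, 2, 0, 2, 0, 3],
   [1, 2, 2, 1, 2, 0], [0, 0, 2, 2, 0], [0, 0, 2, 2, 1], [1, 3, 1, 2, 0], [1, 3, 0, 2, 0],
   [1, 3, 1, 2, 1], [0, 3, 0, 0, 3], [2, 0, 2, 1, 2], [2, 0, 3, 1, 2], [2, 0, 3, 1, 3],
   [2, 0, 2, 1, 3], [2, 2, 0, 0, 3], [2, 2, 0, 0, 2], [0, 0, 2, 1, 3, 1], [2, 1, 3, 1, 2, 2],
   [2, 1, 3, 0], [2, 1, 3, 1], [0, 0, 2, 1, 3, 1, 2, 2], [0, 0, 2, 1, 3, 0], [2, 1, 3, 0, 3],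
   [2, 1, 3, 0, 2], [0, 2, 2, 0, 2], [1, 2, 2, 0, 2], [0, 2, 2, 0, 3], [1, 2, 2, 0, 3], [0, 3],
   [0, 3, 0, 0], [0, 2, 0, 0], [0, 2, 0, 0, 2, 2], [0, 2], [0, 0, 2, 2, 1, 2], [3, 1, 2],
   [2, 1, 2], [2, 1, 3], [3, 1, 3], [1, 2, 0, 0, 2], [0, 3, 0, 3, 1], [1, 3, 0, 0], [1, 3],
   [1, 2, 0, 0], [0, 3, 0, 3, 1, 3], [1, 2], [2, 2, 1, 2], [0, 2, 1, 3, 1], [1, 2, 1, 3, 1],
   [0, 2, 1, 3, 1, 2, 2], [1, 2, 1, 3, 1, 2, 2], [1, 2, 1, 3, 0], [0, 2, 1, 3, 0],
   [2, 1, 3, 1, 2], [2, 1, 3, 1, 3], [0, 3, 1, 2, 2], [0, 3, 0, 2, 2], [0, 3, 1], [0, 3, 0],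
   [0, 0, 3, 1, 2], [0, 0, 2, 1, 2], [0, 0, 3, 1, 3], [0, 0, 2, 1, 3], [0, 2, 0, 0, 2],
   [0, 2, 0, 0, 3], [0, 0, 2, 1, 3, 1, 2], [0, 0, 2, 1, 3, 1, 3], [1, 3, 1, 2, 2],
   [1, 3, 0, 2, 2], [1, 3, 0], [1, 3, 1], [2, 2, 0, 3], [0, 0, 2, 2, 0, 3], [0, 2, 1, 3, 0, 2],
   [0, 2, 1, 3, 0, 3], [2, 2, 0, 2], [0, 0, 2, 2, 0, 2], [0, 2, 0, 2], [0, 2, 0, 3, 0, 0],
   [2, 2, 0, 2, 0, 3], [0, 2, 0, 3], [0, 2, 0, 2, 0, 0], [0, 0, 2, 2, 0, 2, 0, 3], [2, 1],
   [0, 0, 2, 1], [2, 1, 2, 2], [0, 0, 2, 1, 2, 2], [2, 0], [0, 0, 2, 0], [3, 0, 2], [3, 0, 3],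
   [3, 0, 2, 0, 0], [1, 2, 1, 2, 0], [0, 2, 0, 3, 0], [0, 2, 0, 3, 1], [2, 0, 2, 0, 2],
   [3, 0, 2, 0, 2], [0, 0, 2, 2, 0, 2, 0], [0, 0, 2, 2, 1, 2, 0], [2, 0, 2, 0, 3],
   [3, 0, 2, 0, 3], [0, 0, 3, 0, 2], [0, 0, 3, 0, 3], [0, 2, 1, 2, 0], [3, 0, 0, 3, 1],
   [0, 2, 0, 2, 0], [0, 2, 0, 2, 1], [0, 2, 1, 2, 2], [1, 2, 1, 2, 2], [0, 2, 0], [1, 2, 0],
   [0, 2, 1], [1, 2, 1], [3, 1], [1, 2, 1, 3, 1, 3], [1, 2, 1, 3, 1, 2], [3, 1, 2, 2], [3, 0],
   [3, 0, 2, 2], [2, 0, 3, 0, 2], [3, 1, 2, 2, 1], [2, 2, 0, 2, 0], [2, 2, 1, 2, 0],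
   [2, 2, 0, 2, 1], [2, 0, 3, 0, 3], [0, 2, 1, 3, 1, 3], [0, 0, 3, 1], [0, 2, 1, 3, 1, 2],
   [0, 0, 3, 1, 2, 2], [0, 0, 3, 0], [0, 0, 3, 0, 2, 2], [2, 0, 2], [2, 0, 3], [2, 0, 2, 0, 0],
   [2, 0, 3, 0, 0], [1, 2, 2, 0, 2, 0, 3], [0, 2, 2, 0, 2, 0, 3]]

theorem hG4 : Fintype.card GF4 = 2 ^ 2 := card_GF4

theorem small_two : GenBy (⊤ : Subgroup (SU 3 GF4 2)) 2 ∧ Pres (SU 4 GF4 2) 3 8 ∧ ∃ x : SU 3 GF4 2,
    Subgroup.closure {blk 3 4 0 (by omega) x, blk 3 4 1 (by omega) x} = ⊤ := by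
  obtain ⟨a, ha⟩ := exists_tab (mat := m23) (d := 2) hG4 (by simp only [det_fin_three]; decide +kernel)
  obtain ⟨g, hg⟩ := exists_tab (mat := m24) (d := 4) hG4 (by simp only [det_four]; decide +kernel)
  have h1 : ∀ T : Subgroup (SU 3 GF4 2), (∀ i < 2, a i ∈ T) → T = ⊤ := fun T =>
    ha.eq_top (L := l4) (enc := fun t => t.re.val + 2 * t.im.val) (W := w23) (by decide +kernel)
      (by decide +kernel) (by
        have := card_SU hG4 (n := 3) (by omega)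
        simp [Finset.prod_range_succ, show ¬ Even 3 by decide] at this
        exact (show _ ≤ 216 by omega).trans (by decide +kernel))
  have h2 : ∀ i < 2, blk 3 4 0 (by omega) (a i) = g i := fun i hi => Subtype.ext (Subtype.ext (by
    rw [blk, coe_emb, ha.gen hi, hg.gen (by omega)]; revert i; decide +kernel))
  have h3 : blk 3 4 1 (by omega) (a 0) = g 3 := Subtype.ext (Subtype.ext (by
    rw [blk, coe_emb, ha.gen (by omega), hg.gen (by omega)]; decide +kernel))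
  have h4 : ∀ T : Subgroup (SU 4 GF4 2), (∀ i < 3, g i ∈ T) → T = ⊤ := fun T hT =>
    eq_top_of_shift hG4 (k := 3) (by omega) (by omega)
      (shift_of hG4 (by rw [hg.gen (show 2 < 4 by omega)]; decide +kernel)) (hT 2 (by omega)) fun A =>
      (h1 (T.comap _) fun i hi => Subgroup.mem_comap.2 (h2 i hi ▸ hT i (by omega))).ge trivial
  refine ⟨⟨[a 0, a 1], le_rfl, h1 _ fun i hi => Subgroup.subset_closure ?_⟩,
    pres_of_bound g 3 (rels := Enum2.rels) (by decide +kernel)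
      (fun r hr => hg.eq_one (L := l4) (by revert r; decide +kernel)) h4 (by decide)
      (fun _ _ _ => Enum2.A1_bound) ?_, a 0, h4 _ ?_⟩
  · obtain rfl | rfl : i = 0 ∨ i = 1 := by omega
    all_goals simp
  · have := card_SU hG4 (n := 4) (by omega)
    simp [Finset.prod_range_succ, show ¬ Even 3 by decide] at this
    omega
  · rw [h2 0 (by omega), h3]
    have k0 : g 0 ∈ Subgroup.closure {g 0, g 3} := Subgroup.subset_closure (by simp)
    have k : ∀ i w, isOne l4 m24 4 (2 * i :: w) = true → (∀ x ∈ w, x / 2 = 0 ∨ x / 2 = 3) →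
        g i ∈ Subgroup.closure {g 0, g 3} := fun i w h h' => by
      have := hg.eq_one h
      rw [ev_cons, evL_two_mul, mul_eq_one_iff_eq_inv] at this
      exact this ▸ inv_mem (ev_mem fun x hx => Subgroup.subset_closure (by rcases h' x hx with e | e <;> simp [e]))
    intro i hi
    obtain rfl | rfl | rfl : i = 0 ∨ i = 1 ∨ i = 2 := by omega
    · exact k0
    · exact k 1 [1, 7, 1, 1, 7, 0, 7, 1, 6, 1, 1, 6] (by decide +kernel) (by decide)
    · exact k 2 [6, 1, 7, 0, 6, 0, 7, 1, 7, 0, 6, 1] (by decide +kernel) (by decide)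

end Two

section Three

/-- The field element with a given code. -/
def f9 (n : ℕ) : GF9 := ⟨(n % 3 : ℕ), (n / 3 : ℕ)⟩

/-- The elements of the field. -/
def l9 : List GF9 := [⟨0, 0⟩, ⟨1, 0⟩, ⟨2, 0⟩, ⟨0, 1⟩, ⟨1, 1⟩, ⟨2, 1⟩, ⟨0, 2⟩, ⟨1, 2⟩, ⟨2, 2⟩]

/-- Generators of `SU₂(3)`. -/
def m32 : ℕ → Matrix (Fin 2) (Fin 2) GF9 := tb f9 2 210012078744457

/-- Generators of `SU₃(3)`. -/
def m33 : ℕ → Matrix (Fin 3) (Fin 3) GF9 := tb f9 3 1100010010001100100002010100001020100078074100044057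

/-- Generators of `SU₄(3)`. -/
def m34 : ℕ → Matrix (Fin 4) (Fin 4) GF9 := tb f9 4
  21000010000100100001000012000100000010100001010000010000101001000010000020010100001000001002010000100007800741000010000440057

/-- The elements of `SU₂(3)`. -/
def w32 : List (List ℕ) :=
  [[3], [2], [0, 2, 1], [0, 3, 1], [], [2, 2], [1, 2, 0], [0, 2, 0], [0], [0, 3], [1, 2],
   [1, 2, 1], [1, 2, 2], [3, 1], [2, 0], [1, 3, 0], [3, 0], [2, 1], [1], [1, 3, 1], [1, 3],
   [0, 2], [0, 2, 2], [0, 3, 0]]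

theorem hG9 : Fintype.card GF9 = 3 ^ 2 := card_GF9

theorem small_three : Pres (SU 3 GF9 3) 3 6 ∧ Pres (SU 4 GF9 3) 4 12 := by
  obtain ⟨a, ha⟩ := exists_tab (mat := m32) (d := 2) hG9 (by simp only [det_fin_two]; decide +kernel)
  obtain ⟨b, hb⟩ := exists_tab (mat := m33) (d := 3) hG9 (by simp only [det_fin_three]; decide +kernel)
  obtain ⟨g, hg⟩ := exists_tab (mat := m34) (d := 4) hG9 (by simp only [det_four]; decide +kernel)
  have h1 : ∀ T : Subgroup (SU 2 GF9 3), (∀ i < 2, a i ∈ T) → T = ⊤ := fun T =>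
    ha.eq_top (L := l9) (enc := fun t => t.re.val + 3 * t.im.val) (W := w32) (by decide +kernel)
      (by decide +kernel) (by
        have := card_SU hG9 (n := 2) (by omega)
        simp [Finset.prod_range_succ] at this
        exact (show _ ≤ 24 by omega).trans (by decide +kernel))
  have h2 : ∀ i < 2, blk 2 3 0 (by omega) (a i) = b i := fun i hi => Subtype.ext (Subtype.ext (by
    rw [blk, coe_emb, ha.gen hi, hb.gen (by omega)]; revert i; decide +kernel))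
  have h3 : ∀ i < 2, blk 2 4 0 (by omega) (a i) = g i := fun i hi => Subtype.ext (Subtype.ext (by
    rw [blk, coe_emb, ha.gen hi, hg.gen (by omega)]; revert i; decide +kernel))
  refine ⟨pres_of_bound b 3 (rels := Enum3.rels3) (by decide +kernel)
      (fun r hr => hb.eq_one (L := l9) (by revert r; decide +kernel)) (fun T hT => ?_) (by decide)
      (fun _ _ _ => Enum3.A1_bound) ?_,
    pres_of_bound g 4 (rels := Enum3.rels) (by decide +kernel)
      (fun r hr => hg.eq_one (L := l9) (by revert r; decide +kernel)) (fun T hT => ?_) (by decide)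
      (fun _ _ _ => Enum3.A2_bound) ?_⟩
  · exact eq_top_of_shift hG9 (k := 2) (by omega) (by omega)
      (shift_of hG9 (by rw [hb.gen (show 2 < 3 by omega)]; decide +kernel)) (hT 2 (by omega)) fun A =>
      (h1 (T.comap _) fun i hi => Subgroup.mem_comap.2 (h2 i hi ▸ hT i (by omega))).ge trivial
  · have := card_SU hG9 (n := 3) (by omega)
    simp [Finset.prod_range_succ] at this
    omega
  · exact eq_top_of_shift hG9 (k := 2) (by omega) (by omega)
      (shift_of hG9 (by rw [hg.gen (show 3 < 4 by omega)]; decide +kernel)) (hT 3 (by omega)) fun A =>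
      (h1 (T.comap _) fun i hi => Subgroup.mem_comap.2 (h3 i hi ▸ hT i (by omega))).ge trivial
  · have := card_SU hG9 (n := 4) (by omega)
    simp [Finset.prod_range_succ, show ¬ Even 3 by decide] at this
    omega

end Three

end CfsgLib.Phan
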