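import Mathlib
import Cfsg.Agent.Lib.Phan.Small
import Cfsg.Agent.Lib.Pres.SU3
import Cfsg.Agent.Lib.RegUnip.SUMain

/-!
# Bounded presentations and two generators for the special unitary groups
-/

set_option autoImplicit false

namespace CfsgLib.Phan
open Cfsg Matrix CfsgLib.Unitary CfsgLib.Pres CfsgLib.ClPres CfsgLib.Classical Subgroup

variable {F : Type*} [Field F] {q n : ℕ}

theorem suMapEquiv_blk {K : Type*} [Field K] (e : K ≃+* F) {k i : ℕ} (h : i + k ≤ n) (A : SU k K q) :
    suMapEquiv e (blk k n i h A) = blk k n i h (suMapEquiv e A) := by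
  refine Subtype.ext (Subtype.ext ?_)
  change (embM _ A.1.1).map e = embM _ (A.1.1.map e)
  ext a b
  simp [embM, inc, mul_apply, one_apply, apply_ite e]

variable [Fintype F] (hF : Fintype.card F = q ^ 2)
include hF

theorem pres_su_three (h2 : q ≠ 2) : Pres (SU 3 F q) 3 21 := by
  by_cases h3 : q = 3
  · subst h3
    exact (small_three.1.congr (suMapEquiv (FiniteField.ringEquivOfCardEq (hG9.trans hF.symm)))).mono
      (by omega)
  · have := Fact.mk hF
    exact SU3.pres_SU h2 h3

theorem pres_su (hn : 4 ≤ n) : Pres (SU n F q) 6 (if n ≤ 5 then 35 else 39) := by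
  have hq := two_le_q hF
  have hg := genBy_su2 hF
  obtain rfl | rfl | h3 : q = 2 ∨ q = 3 ∨ 3 < q := by omega
  · have e := FiniteField.ringEquivOfCardEq (hG4.trans hF.symm)
    have h4 := small_two.2.1.congr (suMapEquiv e)
    rcases hn.eq_or_lt with rfl | hn
    · exact h4.pad_le (by omega) (by simp)
    have h3 := small_two.1.map (suMapEquiv e).toMonoidHom
    rw [map_top_of_surjective _ (suMapEquiv e).surjective] at h3
    refine (pres_glue_even hF (by exact_mod_cast natCast_q hF) hn h4 (pres_sym (by simp; omega)).1 hg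
      h3).mono ?_
    split_ifs <;> omega
  · have h4 := small_three.2.congr (suMapEquiv (FiniteField.ringEquivOfCardEq (hG9.trans hF.symm)))
    rcases hn.eq_or_lt with rfl | hn
    · exact h4.pad_le (by omega) (by simp)
    refine (pres_glue_four hF (by omega) hn h4 (pres_alt_fin n) hg).mono ?_
    split_ifs <;> omega
  · have h4 := pres_su_three hF (by omega)
    rcases hn.eq_or_lt with rfl | hn
    · exact (pres_four hF h3 h4).pad_le (by omega) (by simp)
    refine (pres_glue_three hF h3 hn h4 (pres_alt (by simp; omega)).1 hg).mono ?_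
    split_ifs <;> omega

theorem su_two_gen (hn : 3 ≤ n) (h : ¬ (n = 3 ∧ q = 2)) : ∃ a b : SU n F q, closure {a, b} = ⊤ := by
  have hq := two_le_q hF
  rcases hn.eq_or_lt with rfl | hn
  · obtain ⟨u, g, -, h⟩ := RegUnip.su_two hF (by omega)
    exact ⟨_, _, h⟩
  rcases hq.eq_or_lt with rfl | hq
  · have e := FiniteField.ringEquivOfCardEq (hG4.trans hF.symm)
    obtain ⟨x, hx⟩ := small_two.2.2
    have := congrArg (Subgroup.map (suMapEquiv e).toMonoidHom) hx
    rw [MonoidHom.map_closure, Set.image_pair, map_top_of_surjective _ (suMapEquiv e).surjective] at this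
    exact two_gen_of_block hF hn (x := suMapEquiv e x) (by simp only [← suMapEquiv_blk]; exact this)
  · exact two_gen_of_two_lt hF hq hn

theorem psu_two_gen (hn : 3 ≤ n) (h : ¬ (n = 3 ∧ q = 2)) : ∃ a b : PSU n F q, closure {a, b} = ⊤ := by
  obtain ⟨a, b, h⟩ := su_two_gen hF hn h
  have := congrArg (Subgroup.map (QuotientGroup.mk' (center (SU n F q)))) h
  rw [MonoidHom.map_closure, Set.image_pair, map_top_of_surjective _ (QuotientGroup.mk'_surjective _)]
    at this
  exact ⟨_, _, this⟩

theorem pres_psu_two (hn : 3 ≤ n) (h : ¬ (n = 3 ∧ q = 2)) : Pres (PSU n F q) 2 42 := by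
  obtain ⟨a, b, hab⟩ := psu_two_gen hF hn h
  rcases hn.eq_or_lt with rfl | hn
  · exact ((pres_psu hF (by omega) (pres_su_three hF (by omega))).change_two hab).mono (by omega)
  · refine ((pres_psu hF (by omega) (pres_su hF hn)).change_two hab).mono ?_
    split_ifs <;> omega

end CfsgLib.Phan
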